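import Mathlib

/-! Lower bound for the order of a module for a group of class two on which the centre (of prime
order) acts nontrivially. -/

set_option autoImplicit false

namespace Cfsg.Lib.PGroup
open Subgroup
open scoped commutatorElement

universe u
variable {E : Type*} [Group E] [Finite E]

/-- If the centre acts faithfully by scalars, the cosets of the centre act independently. -/
theorem index_center_le_sq {K M : Type*} [Field K] [AddCommGroup M] [Module K M]
    [Module.Finite K M] [Nontrivial M] (hE : commutator E ≤ center E) (hc : (Nat.card E : K) ≠ 0)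
    (ρ : E →* Module.End K M) (χ : center E →* K) (hχ : Function.Injective χ)
    (h : ∀ z : center E, ρ z = χ z • 1) : (center E).index ≤ Module.finrank K M ^ 2 := by
  classical
  haveI := Fintype.ofFinite E
  haveI := Fintype.ofFinite (E ⧸ center E)
  have hm : ∀ a b : E, ⁅a, b⁆ ∈ center E := fun a b =>
    hE (commutator_mem_commutator (mem_top _) (mem_top _))
  let T : Module.End K M →ₗ[K] Module.End K M :=
    ∑ x : E, (LinearMap.mulLeft K (ρ x)).comp (LinearMap.mulRight K (ρ x⁻¹))
  have hT : ∀ g, T (ρ g) = (∑ x : E, χ ⟨_, hm x g⟩) • ρ g := fun g => by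
    simp only [T, LinearMap.sum_apply, LinearMap.comp_apply, LinearMap.mulLeft_apply,
      LinearMap.mulRight_apply, Finset.sum_smul]
    refine Finset.sum_congr rfl fun x _ => ?_
    rw [← map_mul, ← map_mul, show x * (g * x⁻¹) = ⁅x, g⁆ * g by rw [commutatorElement_def]; group,
      map_mul, h ⟨_, hm x g⟩, smul_mul_assoc, one_mul]
  have h0 : ∀ g, g ∉ center E → T (ρ g) = 0 := fun g hg => by
    let f : E →* K :=
      { toFun := fun x => χ ⟨_, hm x g⟩
        map_one' := by rw [← map_one χ]; congr 1; ext; simp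
        map_mul' := fun a b => by
          rw [mul_comm, ← map_mul]; congr 1; ext
          have := mem_center_iff.1 (hm b g) a
          calc ⁅a * b, g⁆ = (a * ⁅b, g⁆) * a⁻¹ * ⁅a, g⁆ := by simp only [commutatorElement_def]; group
            _ = _ := by rw [this, mul_inv_cancel_right]; rfl }
    have hf : f ≠ 1 := fun e => hg (mem_center_iff.2 fun x => by
      have h1 : χ ⟨_, hm x g⟩ = χ 1 := by rw [map_one]; exact DFunLike.congr_fun e x
      exact commutatorElement_eq_one_iff_mul_comm.1 (congrArg Subtype.val (hχ h1)))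
    rw [hT, show ∑ x : E, χ ⟨_, hm x g⟩ = 0 from sum_hom_units_eq_zero f hf, zero_smul]
  have hli : LinearIndependent K fun q : E ⧸ center E => ρ q.out := by
    rw [Fintype.linearIndependent_iff]
    intro c hc0 q
    have h1 := congrArg (fun f => T (ρ q.out⁻¹ * f)) hc0
    simp only [Finset.mul_sum, mul_smul_comm, ← map_mul, map_sum, map_smul, mul_zero, map_zero] at h1
    rw [Finset.sum_eq_single q (fun b _ hb => by
      rw [h0 _ fun hz => hb ?_, smul_zero]
      rw [← QuotientGroup.eq, QuotientGroup.out_eq', QuotientGroup.out_eq'] at hz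
      exact hz.symm) (by simp), inv_mul_cancel, hT, map_one, smul_smul, smul_eq_zero] at h1
    rcases h1 with h1 | h1
    · refine (mul_eq_zero.1 h1).resolve_right fun h2 => hc ?_
      rw [← h2, Nat.card_eq_fintype_card]
      rw [Finset.sum_congr rfl fun x _ => show χ ⟨⁅x, 1⁆, hm x 1⟩ = 1 by
        rw [← map_one χ]; congr 1; ext; simp]
      simp
    · exact absurd h1 one_ne_zero
  have := hli.fintype_card_le_finrank
  rwa [Module.finrank_linearMap, ← pow_two, ← Nat.card_eq_fintype_card] at this

variable {p r : ℕ} [hp : Fact p.Prime] [hr : Fact r.Prime]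

theorem pow_le_card_of_simple {M : Type*} [AddCommGroup M] [Module (ZMod r) M] [Finite M]
    (hpr : p ≠ r) (hEp : IsPGroup p E) (hE : commutator E ≤ center E)
    (hZ : Nat.card (center E) = p) {w n : ℕ} (hw : (center E).index = p ^ (2 * w))
    (hmin : ∀ k : ℕ, 1 ≤ k → p ∣ r ^ k - 1 → n ≤ k) (ρ : E →* Module.End (ZMod r) M) {z : E}
    (hz : z ∈ center E) (h1 : ρ z ≠ 1)
    (hs : ∀ W : Submodule (ZMod r) M, (∀ g, W ≤ W.comap (ρ g)) → W = ⊥ ∨ W = ⊤) :
    r ^ (n * p ^ w) ≤ Nat.card M := by
  haveI : Nontrivial M := by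
    by_contra hM
    rw [not_nontrivial_iff_subsingleton] at hM
    exact h1 (Subsingleton.elim _ _)
  haveI : Finite (Module.End (ZMod r) M) := Finite.of_injective _ DFunLike.coe_injective
  let K := Subalgebra.centralizer (ZMod r) (Set.range ρ)
  have hinj : ∀ a : K, a ≠ 0 → ∀ m : M, a.1 m = 0 → m = 0 := fun a ha m hm => by
    rcases hs (LinearMap.ker a.1) (fun g x hx => by
      have := LinearMap.congr_fun (a.2 _ ⟨g, rfl⟩) x
      simp only [Module.End.mul_apply] at this
      rw [Submodule.mem_comap, LinearMap.mem_ker, ← this, LinearMap.mem_ker.1 hx, map_zero]) with h | h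
    · exact (Submodule.eq_bot_iff _).1 h m hm
    · exact absurd (Subtype.ext (LinearMap.ker_eq_top.1 h)) ha
  haveI : NoZeroDivisors K := ⟨fun {a b} hab => by
    by_cases ha : a = 0
    · exact Or.inl ha
    · exact Or.inr (Subtype.ext (LinearMap.ext fun m =>
        hinj a ha _ (LinearMap.congr_fun (congrArg Subtype.val hab) m)))⟩
  haveI : IsDomain K := NoZeroDivisors.to_isDomain K
  letI : Field K := (Finite.isDomain_to_isField K).toField
  haveI : Module.Finite K M := Module.Finite.of_finite
  let ρ' : E →* Module.End K M :=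
    { toFun := fun g =>
        { toFun := ρ g
          map_add' := map_add _
          map_smul' := fun k m => LinearMap.congr_fun (k.2 _ ⟨g, rfl⟩) m }
      map_one' := LinearMap.ext fun m => LinearMap.congr_fun (map_one ρ) m
      map_mul' := fun a b => LinearMap.ext fun m => LinearMap.congr_fun (map_mul ρ a b) m }
  let χ : center E →* K :=
    { toFun := fun x => ⟨ρ x, by
        rintro _ ⟨g, rfl⟩
        rw [← map_mul, ← map_mul, mem_center_iff.1 x.2 g]⟩
      map_one' := Subtype.ext (map_one ρ)
      map_mul' := fun a b => Subtype.ext (map_mul ρ a.1 b.1) }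
  have hχ : Function.Injective χ := by
    rw [← MonoidHom.ker_eq_bot_iff]
    haveI := Fact.mk (hZ ▸ hp.out : (Nat.card (center E)).Prime)
    refine (χ.ker.eq_bot_or_eq_top_of_prime_card).resolve_right fun h => h1 ?_
    exact congrArg Subtype.val (MonoidHom.mem_ker.1 (h.ge (mem_top (⟨z, hz⟩ : center E))))
  haveI : CharP K r := charP_of_injective_algebraMap (algebraMap (ZMod r) K).injective r
  have hc : (Nat.card E : K) ≠ 0 := by
    obtain ⟨k, hk⟩ := IsPGroup.iff_card.1 hEp
    rw [Ne, CharP.cast_eq_zero_iff K r, hk]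
    exact fun h => hpr ((Nat.prime_dvd_prime_iff_eq hr.out hp.out).1 (hr.out.dvd_of_dvd_pow h)).symm
  have h2 := index_center_le_sq hE hc ρ' χ hχ fun x => LinearMap.ext fun m => rfl
  rw [hw, mul_comm, pow_mul, Nat.pow_le_pow_iff_left two_ne_zero] at h2
  have hK : Nat.card K = r ^ Module.finrank (ZMod r) K := by
    rw [Module.natCard_eq_pow_finrank (K := ZMod r), Nat.card_zmod]
  have h3 : n ≤ Module.finrank (ZMod r) K := hmin _ Module.finrank_pos (by
    rw [← hK, ← Nat.card_units, ← hZ]
    exact card_dvd_of_injective χ.toHomUnits fun a b e => hχ (congrArg Units.val e))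
  rw [Module.natCard_eq_pow_finrank (K := K), hK, ← pow_mul]
  exact Nat.pow_le_pow_right hr.out.pos (Nat.mul_le_mul h3 h2)

theorem pow_le_card_of_center (hpr : p ≠ r) (hEp : IsPGroup p E) (hE : commutator E ≤ center E)
    (hZ : Nat.card (center E) = p) {w n : ℕ} (hw : (center E).index = p ^ (2 * w))
    (hmin : ∀ k : ℕ, 1 ≤ k → p ∣ r ^ k - 1 → n ≤ k) {z : E} (hz : z ∈ center E) (N : ℕ) :
    ∀ (M : Type u) [AddCommGroup M] [Module (ZMod r) M] [Finite M], Nat.card M = N →
      ∀ ρ : Representation (ZMod r) E M, ρ z ≠ 1 → r ^ (n * p ^ w) ≤ Nat.card M := by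
  induction N using Nat.strong_induction_on with
  | _ N ih =>
  intro M _ _ _ hN ρ h1
  by_cases hs : ∀ W : Submodule (ZMod r) M, (∀ g, W ≤ W.comap (ρ g)) → W = ⊥ ∨ W = ⊤
  · exact pow_le_card_of_simple hpr hEp hE hZ hw hmin ρ hz h1 hs
  push Not at hs
  obtain ⟨W, hW, h2, h3⟩ := hs
  have hcard := W.card_eq_card_quotient_mul_card
  haveI : Nontrivial W := Submodule.nontrivial_iff_ne_bot.2 h2
  haveI : Nontrivial (M ⧸ W) := Submodule.Quotient.nontrivial_iff.2 h3
  haveI : Finite (M ⧸ W) := Finite.of_surjective _ W.mkQ_surjective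
  have hW1 : 1 < Nat.card W := Finite.one_lt_card
  have hQ1 : 1 < Nat.card (M ⧸ W) := Finite.one_lt_card
  by_cases ha : ρ.subrepresentation W hW z = 1
  · by_cases hb : ρ.quotient W hW z = 1
    · refine absurd (LinearMap.ext fun m => ?_) h1
      have hm : ρ z m - m ∈ W := (Submodule.Quotient.eq W).1 (LinearMap.congr_fun hb (W.mkQ m))
      have hf : ρ z (ρ z m - m) = ρ z m - m :=
        congrArg Subtype.val (LinearMap.congr_fun ha ⟨_, hm⟩)
      have key : ∀ k : ℕ, ρ (z ^ k) m = m + k • (ρ z m - m) := by
        intro k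
        induction k with
        | zero => simp
        | succ k ihk =>
          rw [pow_succ', map_mul, Module.End.mul_apply, ihk, map_add, map_nsmul, hf, succ_nsmul]
          abel
      have h4 := key p
      have hzp : z ^ p = 1 := congrArg Subtype.val (hZ ▸ pow_card_eq_one' (x := (⟨z, hz⟩ : center E)))
      rw [hzp, map_one, Module.End.one_apply, left_eq_add, ← Nat.cast_smul_eq_nsmul (ZMod r),
        smul_eq_zero, ZMod.natCast_eq_zero_iff] at h4
      rcases h4 with h4 | h4
      · exact absurd ((Nat.prime_dvd_prime_iff_eq hr.out hp.out).1 h4).symm hpr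
      · exact sub_eq_zero.1 h4
    · exact (ih _ (by nlinarith) (M ⧸ W) rfl _ hb).trans (by nlinarith)
  · exact (ih _ (by nlinarith) W rfl _ ha).trans (by nlinarith)

/-- The version for an action on an elementary abelian group. -/
theorem pow_le_card_of_aut {V : Type u} [CommGroup V] [Finite V] (he : ∀ x : V, x ^ r = 1)
    (hpr : p ≠ r) (hEp : IsPGroup p E) (hE : commutator E ≤ center E)
    (hZ : Nat.card (center E) = p) {w n : ℕ} (hw : (center E).index = p ^ (2 * w))
    (hmin : ∀ k : ℕ, 1 ≤ k → p ∣ r ^ k - 1 → n ≤ k) {z : E} (hz : z ∈ center E)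
    (φ : E →* MulAut V) (h1 : φ z ≠ 1) : r ^ (n * p ^ w) ≤ Nat.card V := by
  have key : ∀ [Module (ZMod r) (Additive V)], r ^ (n * p ^ w) ≤ Nat.card (Additive V) := by
    intro _
    refine pow_le_card_of_center hpr hEp hE hZ hw hmin hz _ (Additive V) rfl
      { toFun := fun a => (MonoidHom.toAdditive (φ a).toMonoidHom).toZModLinearMap r
        map_one' := LinearMap.ext fun x => by rw [map_one]; rfl
        map_mul' := fun a b => LinearMap.ext fun x => by rw [map_mul]; rfl } fun h => h1 ?_
    ext x
    exact LinearMap.congr_fun h (Additive.ofMul x)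
  exact @key (AddCommGroup.zmodModule fun x => he x.toMul)

end Cfsg.Lib.PGroup
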