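import Cfsg.Agent.Lib.PGroup.Alperin
import Cfsg.Agent.Lib.PGroup.Frattini
import Cfsg.Agent.Lib.Linear.Unip

/-! Generator bounds: `p`-central groups (`d ≤ rank Ω₁`) and `p`-subgroups of `GL_n(p)`
(`d ≤ n² / 4`). -/

set_option autoImplicit false

namespace Cfsg.Lib.PGroup.GenBd

open Subgroup Cfsg.Lib.Linear
open scoped commutatorElement

universe u
variable {p : ℕ} [hp : Fact p.Prime]

theorem comm_pow_aux (h2 : p ≠ 2) (n : ℕ) : ∀ (G : Type u) [Group G] [Finite G], Nat.card G = n →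
    IsPGroup p G → (∀ x : G, x ^ p = 1 → x ∈ center G) →
    ∀ x g : G, (x ^ p) ^ p = 1 → ⁅x, g⁆ ^ p = 1 := by
  induction n using Nat.strong_induction_on with
  | _ n ih =>
  intro G _ _ hn hG hc x g hx
  by_cases ht : zpowers x = ⊤
  · obtain ⟨k, rfl⟩ : g ∈ zpowers x := ht ▸ mem_top g
    rw [commutatorElement_eq_one_iff_commute.2 ((Commute.refl x).zpow_right k), one_pow]
  obtain ⟨M, hxM, hM, hi⟩ := exists_normal_index_eq_of_ne_top hG ht
  have hx1 : x ∈ M := hxM (mem_zpowers x)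
  have hy : g * x⁻¹ * g⁻¹ ∈ M := hM.conj_mem _ (inv_mem hx1) g
  have e : (g * x⁻¹ * g⁻¹) ^ p = (x ^ p)⁻¹ := by
    rw [conj_pow, inv_pow, mem_center_iff.1 (inv_mem (hc _ hx)) g, mul_inv_cancel_right]
  have h1 := ih _ (by
      rw [← hn, ← M.index_mul_card, hi]
      exact lt_mul_of_one_lt_left Nat.card_pos hp.out.one_lt) M rfl (hG.to_subgroup M)
    (fun a ha => mem_center_iff.2 fun b => Subtype.ext
      (mem_center_iff.1 (hc a (congrArg Subtype.val ha)) b)) ⟨_, hy⟩ ⟨x, hx1⟩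
    (Subtype.ext (by simp only [coe_pow, e, inv_pow, hx]; simp))
  have h3 : ⁅g * x⁻¹ * g⁻¹, x⁆ ^ p = 1 := congrArg Subtype.val h1
  have h4 : ⁅x, g⁆ = x * (g * x⁻¹ * g⁻¹) := by rw [commutatorElement_def]; group
  rw [h4, mul_pow_of_odd_of_commute_commutator (hp.out.odd_of_ne_two h2)
    (mem_center_iff.1 (hc _ h3) _) (mem_center_iff.1 (hc _ h3) _) h3, e, mul_inv_cancel]

theorem mem_omega {G : Type*} [Group G] (hc : ∀ x : G, x ^ p = 1 → x ∈ center G) {x : G} :
    x ∈ omegaOne p (⊤ : Subgroup G) ↔ x ^ p = 1 :=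
  ⟨pow_eq_one_of_mem_omegaOne_of_mul fun a _ b _ ha hb => by
    rw [Commute.mul_pow (mem_center_iff.1 (hc b hb) a), ha, hb, one_mul], mem_omegaOne trivial⟩

theorem gen_aux (h2 : p ≠ 2) (n : ℕ) : ∀ (G : Type u) [Group G] [Finite G] (k : ℕ),
    Nat.card G = n → IsPGroup p G → (∀ x : G, x ^ p = 1 → x ∈ center G) →
    Nat.card (omegaOne p (⊤ : Subgroup G)) ≤ p ^ k →
    ∃ S : Finset G, S.card ≤ k ∧ closure (S : Set G) = ⊤ := by
  classical
  induction n using Nat.strong_induction_on with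
  | _ n ih =>
  intro G _ _ k hn hG hc hk
  set Ω := omegaOne p (⊤ : Subgroup G) with hΩ
  by_cases h0 : Ω = ⊥
  · exact ⟨∅, by simp, by
      rw [(omegaOne_eq_bot_iff (hG.to_subgroup ⊤)).1 h0]; simp⟩
  by_cases hf : Ω ≤ frattini G
  · have key : ∀ x : G, (x : G ⧸ Ω) ^ p = 1 → (x ^ p) ^ p = 1 := fun x hx =>
      (mem_omega hc).1 ((QuotientGroup.eq_one_iff _).1 hx)
    have hq : ∀ x : G ⧸ Ω, x ^ p = 1 → x ∈ center (G ⧸ Ω) := fun x hx => by
      obtain ⟨x, rfl⟩ := QuotientGroup.mk_surjective x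
      refine mem_center_iff.2 fun g => ?_
      obtain ⟨g, rfl⟩ := QuotientGroup.mk_surjective g
      rw [eq_comm, ← commutatorElement_eq_one_iff_mul_comm]
      exact (map_commutatorElement (QuotientGroup.mk' _) x g).symm.trans
        ((QuotientGroup.eq_one_iff _).2 ((mem_omega hc).2
          (comm_pow_aux h2 _ G rfl hG hc x g (key x hx))))
    have hx : ∀ x : omegaOne p (⊤ : Subgroup (G ⧸ Ω)), ((x : G ⧸ Ω).out ^ p) ^ p = 1 := fun x =>
      key _ (by rw [QuotientGroup.out_eq']; exact (mem_omega hq).1 x.2)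
    obtain ⟨S, hS, e⟩ := ih _ (by
        rw [← hn, ← Ω.index_mul_card]
        exact lt_mul_of_one_lt_right Nat.card_pos (one_lt_card_iff_ne_bot _ |>.2 h0))
      (G ⧸ Ω) k rfl (hG.to_quotient Ω) hq (le_trans (Nat.card_le_card_of_injective
        (fun x => (⟨_, (mem_omega hc).2 (hx x)⟩ : Ω)) fun x y e => by
          have e1 : (x : G ⧸ Ω).out ^ p = (y : G ⧸ Ω).out ^ p := congrArg Subtype.val e
          have h3 := comm_pow_aux h2 _ G rfl hG hc _ (x : G ⧸ Ω).out⁻¹ (hx y)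
          have h4 := mul_pow_of_odd_of_commute_commutator (hp.out.odd_of_ne_two h2)
            (mem_center_iff.1 (hc _ h3) _) (mem_center_iff.1 (hc _ h3) _) h3
          rw [inv_pow, e1, inv_mul_cancel] at h4
          have := QuotientGroup.eq.2 ((mem_omega hc).2 h4)
          rw [QuotientGroup.out_eq', QuotientGroup.out_eq'] at this
          exact Subtype.ext this) hk)
    refine ⟨S.image Quotient.out, Finset.card_image_le.trans hS, frattini_nongenerating ?_⟩
    have h1 : (closure ((S.image Quotient.out : Finset G) : Set G)).map (QuotientGroup.mk' Ω) = ⊤ := by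
      rw [MonoidHom.map_closure, Finset.coe_image, Set.image_image, ← e]
      simp
    have := congrArg (comap (QuotientGroup.mk' Ω)) h1
    rw [comap_map_eq, QuotientGroup.ker_mk', comap_top] at this
    exact top_le_iff.1 (this.ge.trans (sup_le_sup_left hf _))
  · obtain ⟨M, hM, hle⟩ : ∃ M : Subgroup G, IsCoatom M ∧ ¬ Ω ≤ M := by
      by_contra! h
      exact hf (le_frattini_iff.2 h)
    obtain ⟨z, hz, hzM⟩ := SetLike.not_le_iff_exists.1 hle
    have h1 := mul_card_le_of_lt (hG.to_subgroup Ω) ((omegaOne_mono (p := p) (le_top (a := M))).lt_of_ne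
      fun e => hzM (omegaOne_le M (e.ge hz)))
    obtain _ | k := k
    · have := Nat.card_pos (α := omegaOne p M)
      have := hp.out.one_lt
      nlinarith
    obtain ⟨S, hS, e⟩ := ih _ (hn ▸ (card_le_card_group M).lt_of_ne fun e => hM.1
      (eq_top_of_card_eq _ e) : Nat.card M < _) M k rfl (hG.to_subgroup M)
      (fun a ha => mem_center_iff.2 fun b => Subtype.ext
        (mem_center_iff.1 (hc a (congrArg Subtype.val ha)) b)) (by
        rw [card_omegaOne_top_subtype]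
        exact Nat.le_of_mul_le_mul_left (h1.trans (hk.trans_eq (pow_succ' p k))) hp.out.pos)
    refine ⟨insert z (S.image M.subtype), (Finset.card_insert_le _ _).trans
      (Nat.succ_le_succ (Finset.card_image_le.trans hS)), hM.2 _ (lt_of_le_of_ne ?_ ?_)⟩
    · have := congrArg (map M.subtype) e
      rw [MonoidHom.map_closure, ← MonoidHom.range_eq_map, range_subtype] at this
      exact this.ge.trans (closure_mono (by simp))
    · exact fun e => hzM (e ▸ subset_closure (by simp))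

section
variable {n : ℕ} {F : Type*} [Field F]

/-- Weights with pairwise distinct positive differences. -/
def wt (i : Fin n) : ℕ := 2 ^ (i : ℕ)

theorem wt_lt {i j : Fin n} (h : i < j) : 2 * wt i ≤ wt j := by
  rw [wt, wt, ← pow_succ']
  exact Nat.pow_le_pow_right two_pos h

theorem wt_pos (i : Fin n) : 0 < wt i := Nat.two_pow_pos _

theorem lt_of_wt {i j : Fin n} (h : wt i < wt j) : i < j := by
  by_contra h1
  rcases (not_lt.1 h1).eq_or_lt with rfl | h2
  · omega
  · have := wt_lt h2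
    omega

theorem wt_inj {i j : Fin n} (h : wt i = wt j) : i = j := by
  have := wt_pos i
  rcases lt_trichotomy i j with h1 | h1 | h1
  · have := wt_lt h1
    omega
  · exact h1
  · have := wt_lt h1
    omega

theorem wt_uniq {k l k' l' : Fin n} {m : ℕ} (hm : 0 < m) (h : wt l = wt k + m)
    (h' : wt l' = wt k' + m) : k = k' ∧ l = l' := by
  have h1 := wt_lt (lt_of_wt (show wt k < wt l by omega))
  have h2 := wt_lt (lt_of_wt (show wt k' < wt l' by omega))
  have := wt_pos k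
  have := wt_pos k'
  have e : l = l' := by
    rcases lt_trichotomy l l' with h3 | h3 | h3
    · have := wt_lt h3
      omega
    · exact h3
    · have := wt_lt h3
      omega
  subst e
  exact ⟨wt_inj (by omega), rfl⟩

/-- `(k, l)` is the leading position of `g - 1`. -/
def Lead (g : GL (Fin n) F) (k l : Fin n) : Prop :=
  ∃ m, 0 < m ∧ wt l = wt k + m ∧ Raises wt m (g.1 - 1) ∧ (g.1 - 1) k l ≠ 0

theorem lead_comm {a b : GL (Fin n) F} {i j k : Fin n} (ha : Lead a i j) (hb : Lead b j k) :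
    Lead ⁅a, b⁆ i k := by
  obtain ⟨m, m0, e1, r1, n1⟩ := ha
  obtain ⟨m', m0', e2, r2, n2⟩ := hb
  have hu : (b * a)⁻¹ ∈ unipGL (F := F) wt :=
    inv_mem (mul_mem (mem_unipGL.2 (r2.mono m0')) (mem_unipGL.2 (r1.mono m0)))
  have hD := (r1.mul r2).sub (add_comm m' m ▸ r2.mul r1)
  have e : (⁅a, b⁆.1 - 1) = ((a.1 - 1) * (b.1 - 1) - (b.1 - 1) * (a.1 - 1)) +
      ((a.1 - 1) * (b.1 - 1) - (b.1 - 1) * (a.1 - 1)) * ((b * a)⁻¹.1 - 1) := by
    have h1 : ⁅a, b⁆ = a * b * (b * a)⁻¹ := by rw [commutatorElement_def]; group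
    have h2 : b.1 * a.1 * (b * a)⁻¹.1 = 1 := (b * a).mul_inv
    have h3 : ((a.1 - 1) * (b.1 - 1) - (b.1 - 1) * (a.1 - 1)) +
        ((a.1 - 1) * (b.1 - 1) - (b.1 - 1) * (a.1 - 1)) * ((b * a)⁻¹.1 - 1) =
        a.1 * b.1 * (b * a)⁻¹.1 - b.1 * a.1 * (b * a)⁻¹.1 := by noncomm_ring
    rw [h3, h2, h1, Units.val_mul, Units.val_mul]
  have hE := hD.mul (mem_unipGL.1 hu)
  refine ⟨m + m', by omega, by omega, e ▸ hD.add (hE.mono (by omega)), ?_⟩
  rw [e, Matrix.add_apply, hE i k (by omega), add_zero, Matrix.sub_apply, Matrix.mul_apply,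
    Matrix.mul_apply, Finset.sum_eq_single j, Finset.sum_eq_zero, sub_zero]
  · exact mul_ne_zero n1 n2
  · intro x _
    by_contra h
    obtain ⟨h1, h2⟩ := mul_ne_zero_iff.1 h
    have h3 := mt (r2 i x) h1
    have h4 := mt (r1 x k) h2
    obtain ⟨rfl, -⟩ := wt_uniq m0' e2 (show wt x = wt i + m' by omega)
    omega
  · intro x _ hx
    by_contra h
    obtain ⟨h1, h2⟩ := mul_ne_zero_iff.1 h
    have h3 := mt (r1 i x) h1
    have h4 := mt (r2 x k) h2
    exact hx (wt_inj (by omega))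
  · simp

theorem raises_mul {a b : GL (Fin n) F} {m : ℕ} (m0 : 0 < m) (r1 : Raises wt m (a.1 - 1))
    (r2 : Raises wt m (b.1 - 1)) : Raises wt m ((a * b).1 - 1) ∧ ∀ k l, wt l = wt k + m →
      ((a * b).1 - 1) k l = (a.1 - 1) k l + (b.1 - 1) k l := by
  have e : (a * b).1 - 1 = (a.1 - 1) + (b.1 - 1) + (a.1 - 1) * (b.1 - 1) := by
    rw [Units.val_mul]; noncomm_ring
  refine ⟨e ▸ (r1.add r2).add ((r1.mul r2).mono (by omega)), fun k l h => ?_⟩
  rw [e, Matrix.add_apply, r1.mul r2 k l (by omega), add_zero, Matrix.add_apply]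

theorem raises_pow {a : GL (Fin n) F} {m : ℕ} (m0 : 0 < m) (r : Raises wt m (a.1 - 1)) (j : ℕ) :
    Raises wt m ((a ^ j).1 - 1) ∧ ∀ k l, wt l = wt k + m →
      ((a ^ j).1 - 1) k l = j * (a.1 - 1) k l := by
  induction j with
  | zero => simpa using Raises.zero
  | succ j ih =>
    rw [pow_succ]
    refine ⟨(raises_mul m0 ih.1 r).1, fun k l h => ?_⟩
    rw [(raises_mul m0 ih.1 r).2 k l h, ih.2 k l h]
    push_cast
    ring

theorem card_indec_le (R : Fin n → Fin n → Prop) (hR : ∀ a b, R a b → a < b)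
    (I : Finset (Fin n × Fin n)) (hI : ∀ x ∈ I, R x.1 x.2 ∧ ¬ ∃ j, R x.1 j ∧ R j x.2) :
    I.card ≤ n ^ 2 / 4 := by
  classical
  let Γ : SimpleGraph (Fin n) :=
    { Adj := fun a b => (a, b) ∈ I ∨ (b, a) ∈ I
      symm := ⟨fun _ _ h => h.symm⟩
      loopless := ⟨fun a h => (hR a a (hI _ (h.elim id id)).1).false⟩ }
  have hc : Γ.CliqueFree (2 + 1) := fun s hs => by
    obtain ⟨a, b, c, h1, h2, h3, -⟩ := SimpleGraph.is3Clique_iff.1 hs
    have t : ∀ a b c, (a, b) ∈ I → (b, c) ∈ I → (a, c) ∉ I ∧ (c, a) ∉ I := fun a b c x y =>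
      ⟨fun z => (hI _ z).2 ⟨b, (hI _ x).1, (hI _ y).1⟩, fun z => lt_irrefl a
        ((hR _ _ (hI _ x).1).trans ((hR _ _ (hI _ y).1).trans (hR _ _ (hI _ z).1)))⟩
    rcases h1 with h1 | h1 <;> rcases h2 with h2 | h2 <;> rcases h3 with h3 | h3
    exacts [(t _ _ _ h1 h3).1 h2, (t _ _ _ h2 h3).1 h1, (t _ _ _ h1 h3).2 h2, (t _ _ _ h2 h1).1 h3,
      (t _ _ _ h1 h2).1 h3, (t _ _ _ h1 h2).2 h3, (t _ _ _ h3 h2).1 h1, (t _ _ _ h3 h1).1 h2]
  have h1 := hc.card_edgeFinset_le
  have h2 : I.card ≤ Γ.edgeFinset.card := Finset.card_le_card_of_injOn (fun x => s(x.1, x.2))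
    (fun x hx => by simpa using Or.inl hx) fun x hx y hy e => by
      rcases Sym2.eq_iff.1 e with ⟨e1, e2⟩ | ⟨e1, e2⟩
      · exact Prod.ext e1 e2
      · have := hR _ _ (hI x hx).1
        have := hR _ _ (hI y hy).1
        omega
  simp only [Fintype.card_fin] at h1
  have h3 : (n % 2).choose 2 = 0 := Nat.choose_eq_zero_of_lt (Nat.mod_lt _ two_pos)
  omega

theorem exists_gen_unip {H : Type*} [Group H] (f : H →* GL (Fin n) (ZMod p))
    (hf : ∀ h, f h ∈ unipGL (Fin.val : Fin n → ℕ)) :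
    ∃ T : Finset H, T.card ≤ n ^ 2 / 4 ∧ closure (T : Set H) ⊔ f.ker = ⊤ := by
  classical
  let R : Fin n → Fin n → Prop := fun k l => ∃ h, Lead (f h) k l
  have hR : ∀ a b, R a b → a < b := fun a b ⟨_, m, m0, e, _⟩ => lt_of_wt (by omega)
  let I := Finset.univ.filter fun x : Fin n × Fin n => R x.1 x.2 ∧ ¬ ∃ j, R x.1 j ∧ R j x.2
  have hc : ∀ x : Fin n × Fin n, ∃ h, R x.1 x.2 → Lead (f h) x.1 x.2 := fun x => by
    by_cases e : R x.1 x.2
    · exact ⟨_, fun _ => e.choose_spec⟩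
    · exact ⟨1, fun h => absurd h e⟩
  choose c hc using hc
  refine ⟨I.image c, Finset.card_image_le.trans
    (card_indec_le R hR I fun x hx => (Finset.mem_filter.1 hx).2), ?_⟩
  set L := closure ((I.image c : Finset H) : Set H) ⊔ f.ker
  have h1 : ∀ (d : ℕ) (k l : Fin n), (l : ℕ) - k = d → R k l → ∃ h ∈ L, Lead (f h) k l := by
    intro d
    induction d using Nat.strong_induction_on with
    | _ d ih =>
    intro k l hd h
    by_cases e : ∃ j, R k j ∧ R j l
    · obtain ⟨j, e1, e2⟩ := e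
      have := hR _ _ e1
      have := hR _ _ e2
      obtain ⟨a, ha, la⟩ := ih _ (by omega) k j rfl e1
      obtain ⟨b, hb, lb⟩ := ih _ (by omega) j l rfl e2
      exact ⟨⁅a, b⁆, mul_mem (mul_mem (mul_mem ha hb) (inv_mem ha)) (inv_mem hb),
        map_commutatorElement f a b ▸ lead_comm la lb⟩
    · exact ⟨c (k, l), mem_sup_left (subset_closure (Finset.mem_coe.2
        (Finset.mem_image_of_mem c (Finset.mem_filter.2 ⟨Finset.mem_univ _, h, e⟩)))), hc _ h⟩
  have h2 : ∀ d m : ℕ, 0 < m → 2 ^ n ≤ m + d → ∀ h, Raises wt m ((f h).1 - 1) → h ∈ L := by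
    intro d
    induction d with
    | zero =>
      intro m _ hm h r
      refine mem_sup_right (MonoidHom.mem_ker.2 (Units.ext (sub_eq_zero.1 (r.eq_zero fun l => ?_))))
      exact (Nat.pow_lt_pow_right one_lt_two l.2).trans_le hm
    | succ d ih =>
      intro m m0 hm h r
      by_cases e : Raises wt (m + 1) ((f h).1 - 1)
      · exact ih (m + 1) (by omega) (by omega) h e
      obtain ⟨k, l, e1, e2⟩ : ∃ k l, wt l < wt k + (m + 1) ∧ ((f h).1 - 1) k l ≠ 0 := by
        simpa [Raises] using e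
      have e3 : wt l = wt k + m := by
        have := mt (r k l) e2
        omega
      obtain ⟨a, ha, m', -, e4, r', n'⟩ := h1 _ k l rfl ⟨h, m, m0, e3, r, e2⟩
      obtain rfl : m = m' := by omega
      let j := (-((f h).1 - 1) k l / ((f a).1 - 1) k l).val
      obtain ⟨p1, p2⟩ := raises_pow m0 r' j
      obtain ⟨p3, p4⟩ := raises_mul m0 r p1
      have := ih (m + 1) (by omega) (by omega) (h * a ^ j) fun k' l' hw => by
        rw [map_mul, map_pow]
        rcases (show wt l' < wt k' + m ∨ wt l' = wt k' + m by omega) with h5 | h5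
        · exact p3 k' l' h5
        · obtain ⟨rfl, rfl⟩ := wt_uniq m0 e3 h5
          rw [p4 k l e3, p2 k l e3, ZMod.natCast_zmod_val]
          field_simp
          ring
      simpa using mul_mem this (inv_mem (pow_mem ha j))
  refine eq_top_iff.2 fun h _ => h2 (2 ^ n) 1 one_pos (by omega) h fun k l hw =>
    mem_unipGL.1 (hf h) k l ?_
  by_contra h3
  have := wt_lt (show k < l by omega)
  have := wt_pos k
  omega

end

/-- A `p`-group mapping to `GL_n(p)` is generated by the kernel and at most `n² / 4` elements. -/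
theorem exists_gen_GL {n : ℕ} {H : Type*} [Group H] (hH : IsPGroup p H)
    (f : H →* GL (Fin n) (ZMod p)) :
    ∃ T : Finset H, T.card ≤ n ^ 2 / 4 ∧ closure (T : Set H) ⊔ f.ker = ⊤ := by
  obtain ⟨Q, hQ⟩ := (hH.of_surjective _ f.rangeRestrict_surjective).exists_le_sylow
  obtain ⟨g, hg⟩ := MulAction.exists_smul_eq (GL (Fin n) (ZMod p)) Q (sylowGL n (ZMod p) p)
  obtain ⟨T, h1, h2⟩ := exists_gen_unip ((MulAut.conj g).toMonoidHom.comp f) fun h => by
    rw [← coe_sylowGL n p, ← hg]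
    exact ⟨f h, hQ ⟨h, rfl⟩, rfl⟩
  refine ⟨T, h1, top_le_iff.1 (h2.ge.trans (sup_le_sup_left (fun x hx => ?_) _))⟩
  simpa using hx

end Cfsg.Lib.PGroup.GenBd
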